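/-
Sylow subgroups and powers.
-/
import Cfsg.Agent.Typ.A8
import Cfsg.Agent.Fi.Prim
import Cfsg.Agent.Fi.Dihedral
import Cfsg.Agent.Loc.Abs

set_option autoImplicit false

namespace CA.Typ

open Subgroup CA.Fi Cfsg.Agent.Orth QuadraticMap Cfsg

universe u w

local notation "F" => ZMod 2

variable {G : Type u} [Group G] {G' : Type w} [Group G']

theorem card_cent_conj {a b : G} (h : IsConj a b) :
    Nat.card (centralizer ({a} : Set G)) = Nat.card (centralizer ({b} : Set G)) := by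
  obtain ⟨x, rfl⟩ := isConj_iff.mp h
  refine Nat.card_congr (Equiv.subtypeEquiv (MulAut.conj x).toEquiv fun y => ?_)
  rw [mem_cent_iff, mem_cent_iff]
  exact ⟨fun h => h.map (MulAut.conj x), fun h => Commute.of_map (MulAut.conj x).injective h⟩

theorem isP_zpowers {p k : ℕ} {x : G} (h : x ^ p ^ k = 1) : IsPGroup p (zpowers x) := by
  rintro ⟨_, n, rfl⟩
  refine ⟨k, Subtype.ext ?_⟩
  show (x ^ n) ^ p ^ k = 1
  rw [← zpow_natCast, ← zpow_mul, mul_comm, zpow_mul, zpow_natCast, h, one_zpow]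

theorem exists_conj_of_odd (M R : Subgroup G) (hR : IsPGroup 2 R) (h : M.index % 2 = 1) :
    ∃ g, ∀ r ∈ R, g⁻¹ * r * g ∈ M := by
  obtain ⟨q, -, hq⟩ := M24.exists_fixed_of_odd R hR (Set.univ : Set (G ⧸ M)) (by rwa [Set.ncard_univ])
    fun _ _ _ _ => Set.mem_univ _
  obtain ⟨g, rfl⟩ := QuotientGroup.mk_surjective q
  exact ⟨g, fun r hr => mul_assoc g⁻¹ r g ▸ QuotientGroup.eq.1 (hq r hr).symm⟩

theorem exists_max_p [Finite G] {p : ℕ} [hp : Fact p.Prime] {L H S0 : Subgroup G} (h0 : IsPGroup p S0) (h1 : S0 ≤ L)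
    (h2 : S0 ≤ H) (hN : ∀ S : Subgroup G, IsPGroup p S → S0 ≤ S → S ≤ L → S ≤ H → ∀ y ∈ L,
      y ∈ normalizer (S : Set G) → y ∈ H) {R : Subgroup G} (hR : IsPGroup p R) (hL : R ≤ L) :
    ∃ g ∈ L, ∀ r ∈ R, g⁻¹ * r * g ∈ H := by
  obtain ⟨S, -, ⟨a1, a2, a3, a4⟩, hm⟩ := Finite.exists_le_maximal
    (p := fun S : Subgroup G => IsPGroup p S ∧ S0 ≤ S ∧ S ≤ L ∧ S ≤ H) ⟨h0, le_rfl, h1, h2⟩
  obtain ⟨P, hP⟩ := (a1.comap_subtype (K := L)).exists_le_sylow
  have b1 : IsPGroup p ((P : Subgroup L).map L.subtype) := P.isPGroup'.map _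
  have b2 : S ≤ (P : Subgroup L).map L.subtype := fun x hx => ⟨⟨x, a3 hx⟩, hP hx, rfl⟩
  have b3 : (P : Subgroup L).map L.subtype ≤ S := by
    by_contra e
    have := lt_inf_normalizer hp.out b1 (lt_of_le_not_ge b2 e)
    exact this.not_ge (hm ⟨b1.to_inf_left, a2.trans this.le, inf_le_left.trans (map_subtype_le _),
      fun y hy => hN S a1 a2 a3 a4 y (map_subtype_le _ hy.1) hy.2⟩ this.le)
  obtain ⟨g, hg⟩ := exists_conj_le_sylow P (hR.comap_subtype (K := L))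
  exact ⟨g, g.2, fun r hr => a4 (b3 ⟨_, hg ⟨r, hL hr⟩ hr, rfl⟩)⟩

theorem conj_into [Finite G] {Q : Subgroup G} {z : G} (h : LE Q z) {R : Subgroup G} (hR : IsPGroup 2 R) :
    ∃ g, ∀ r ∈ R, Commute (g⁻¹ * r * g) z := by
  obtain ⟨g, -, hg⟩ := exists_max_p (L := ⊤) (H := centralizer {z}) h.isPGroup le_top h.le_cent
    (fun S _ a _ b y _ hy => by
      have m : y * z * y⁻¹ ∈ S := (mem_normalizer_iff.1 hy _).1 (a h.z_mem)
      have c : ∀ x ∈ Q, Commute (y * z * y⁻¹) x := fun x hx => by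
        have := (mem_cent_iff.1 (b ((mem_normalizer_iff''.1 hy _).1 (a hx)))).symm.map (MulAut.conj y)
        simpa [mul_assoc] using this
      exact mem_cent_iff.2 (mul_inv_eq_iff_eq_mul.1 ((h.cen _ (h.cent _ c) c).resolve_left fun e =>
        h.z_ne (by simpa using e)))) hR le_top
  exact ⟨g, fun r hr => mem_cent_iff.1 (hg r hr)⟩

theorem end_pow_eq_one {V : Type*} [AddCommGroup V] [Module F V] [FiniteDimensional F V] [Nontrivial V]
    (f : Module.End F V) {k n : ℕ} (h : f ^ 2 ^ k = 1) (hn : Module.finrank F V ≤ 2 ^ n) : f ^ 2 ^ n = 1 := by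
  have : CharP (Module.End F V) 2 := charP_of_injective_algebraMap (algebraMap F _).injective 2
  have e : ∀ m, (f - 1) ^ 2 ^ m = f ^ 2 ^ m - 1 := fun m => by
    rw [sub_pow_char_pow_of_commute _ _ (Commute.one_right f), one_pow]
  have h1 : IsNilpotent (f - 1) := ⟨2 ^ k, by rw [e, h, sub_self]⟩
  have h2 := LinearMap.aeval_self_charpoly (f - 1)
  rw [h1.charpoly_eq_X_pow_finrank, map_pow, Polynomial.aeval_X] at h2
  rw [← sub_eq_zero, ← e]
  exact pow_eq_zero_of_le hn h2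

theorem pow_mem_Q [Finite G] {Q : Subgroup G} {z : G} (h : LE Q z) {V : Type*} [AddCommGroup V] [Module F V]
    [FiniteDimensional F V] [Nontrivial V] {𝔮 : QuadraticForm F V} {π : Q → V}
    (hm : Model (⟨z, h.z_mem⟩ : Q) 𝔮 π) {n : ℕ} (hn : Module.finrank F V ≤ 2 ^ n) {y : G} (hy : Commute y z) {k : ℕ}
    (hk : y ^ 2 ^ k = 1) : y ^ 2 ^ n ∈ Q := by
  obtain ⟨φ, h1, -⟩ := exists_hom_OG h hm
  have e : ∀ m, ((φ ⟨y, mem_cent_iff.2 hy⟩).1 : Module.End F V) ^ m = (φ (⟨y, mem_cent_iff.2 hy⟩ ^ m)).1 :=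
    fun m => by rw [map_pow, coe_pow]; exact (map_pow LinearEquiv.automorphismGroup.toLinearMapMonoidHom _ _).symm
  have := end_pow_eq_one _ ((e _).trans (by
    rw [show (⟨y, mem_cent_iff.2 hy⟩ ^ 2 ^ k : centralizer ({z} : Set G)) = 1 from Subtype.ext hk, map_one]; rfl)) hn
  rw [e] at this
  have m : (⟨y, mem_cent_iff.2 hy⟩ ^ 2 ^ n : centralizer ({z} : Set G)) ∈ φ.ker :=
    Subtype.ext (LinearEquiv.toLinearMap_injective this)
  rwa [h1] at m

theorem Am.Q_surj [Finite G] [Finite G'] {Θ : G → G'} {Q : Subgroup G} {z s : G} {Q' : Subgroup G'} {z' s' : G'}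
    (M : Am Θ Q z s Q' z' s') (h : Q ≤ centralizer {z}) (hc : Nat.card Q = Nat.card Q') {y : G'} (hy : y ∈ Q') :
    ∃ x ∈ Q, Θ x = y := by
  obtain ⟨x, e⟩ := ((Nat.bijective_iff_injective_and_card (fun x : Q => (⟨Θ x, M.Q _ x.2⟩ : Q'))).2
    ⟨fun a b e => Subtype.ext ((M.H.eq_iff (h a.2) (h b.2)).1 (congrArg Subtype.val e)), hc⟩).2 ⟨y, hy⟩
  exact ⟨x, x.2, congrArg Subtype.val e⟩

end CA.Typ
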